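import Cfsg.Agent.H785.Inv4.SpC
import Cfsg.Agent.H146.Inv4.Base
import Cfsg.Agent.S2445
import Cfsg.Prelude.Def_Classical

/-!
# `PSp_{2m}(q)`: every element is a product of four involutions (helper785, for S4171)
-/

set_option autoImplicit false

namespace Cfsg.Agent.H785.Inv4

open Matrix Cfsg.Agent.H144 Cfsg.Agent.S2445 Cfsg.Agent.H146.Inv4

variable {F : Type*} [Field F] {m : ℕ}

/-- the matrix of an isometry -/
noncomputable def toSp {X : (Fin m ⊕ Fin m → F) ≃ₗ[F] (Fin m ⊕ Fin m → F)} (hX : Iso (form F m) X) :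
    Matrix.symplecticGroup (Fin m) F := ⟨_, mem_of_iso hX⟩

theorem toSp_val {X : (Fin m ⊕ Fin m → F) ≃ₗ[F] (Fin m ⊕ Fin m → F)} (hX : Iso (form F m) X) :
    (toSp hX).1 = LinearMap.toMatrix' (X : (Fin m ⊕ Fin m → F) →ₗ[F] (Fin m ⊕ Fin m → F)) := rfl

theorem toSp_mul {X Y : (Fin m ⊕ Fin m → F) ≃ₗ[F] (Fin m ⊕ Fin m → F)} (hX : Iso (form F m) X)
    (hY : Iso (form F m) Y) : toSp hX * toSp hY = toSp (hX.mul hY) := by
  apply Subtype.ext
  change LinearMap.toMatrix' _ * LinearMap.toMatrix' _ = LinearMap.toMatrix' _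
  rw [← LinearMap.toMatrix'_comp]
  rfl

theorem toSp_act (g : Matrix.symplecticGroup (Fin m) F) : toSp (act_iso g) = g := by
  apply Subtype.ext
  exact LinearMap.toMatrix'_toLin' _

theorem sq_mem {X : (Fin m ⊕ Fin m → F) ≃ₗ[F] (Fin m ⊕ Fin m → F)} (hX : Iso (form F m) X) (h : Jsq X) :
    toSp hX * toSp hX ∈ Subgroup.center (Matrix.symplecticGroup (Fin m) F) := by
  have h1 : (toSp hX * toSp hX).1 = -1 := by
    rw [toSp_mul, toSp_val]
    have h2 : ((X * X : (Fin m ⊕ Fin m → F) ≃ₗ[F] (Fin m ⊕ Fin m → F)) : (Fin m ⊕ Fin m → F) →ₗ[F] (Fin m ⊕ Fin m → F))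
        = -LinearMap.id := LinearMap.ext fun v => h v
    rw [h2, map_neg, LinearMap.toMatrix'_id]
  rw [Subgroup.mem_center_iff]
  intro g
  apply Subtype.ext
  change g.1 * (toSp hX * toSp hX).1 = (toSp hX * toSp hX).1 * g.1
  rw [h1, mul_neg, neg_mul, mul_one, one_mul]

theorem w4_sp [Finite F] (h1 : m = 1 → 4 ≤ Nat.card F) (h2 : m = 2 → 3 ≤ Nat.card F)
    (g : Matrix.symplecticGroup (Fin m) F) : W4 (Subgroup.center (Matrix.symplecticGroup (Fin m) F)) g := by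
  have hV : Module.finrank F (Fin m ⊕ Fin m → F) = 2 * m := by
    rw [Module.finrank_fintype_fun_eq_card, Fintype.card_sum, Fintype.card_fin]
    ring
  obtain ⟨T₁, T₂, T₃, T₄, ⟨i1, i2, i3, i4⟩, ⟨s1, s2, s3, s4⟩, e⟩ := sp_four form_alt form_nond hV h1 h2 (act_iso g)
  have e' : g = toSp i1 * toSp i2 * toSp i3 * toSp i4 := by
    rw [toSp_mul, toSp_mul, toSp_mul]
    conv_lhs => rw [← toSp_act g]
    apply Subtype.ext
    rw [toSp_val, toSp_val, e]
  rw [e']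
  exact W4.intro (sq_mem i1 s1) (sq_mem i2 s2) (sq_mem i3 s3) (sq_mem i4 s4)

/-- **the row `PSp_{2m}(q)` of S4171** -/
theorem i4_psp {G : Type*} [Group G] (h : Cfsg.IsPSp G) : I4 G := by
  obtain ⟨F, _, _, m, hm, h2, ⟨e⟩⟩ := h
  refine I4.congr e.symm ?_
  refine I4.quot fun g => w4_sp (fun h => by omega) (fun h => ?_) g
  rw [Nat.card_eq_fintype_card]
  exact h2 h

end Cfsg.Agent.H785.Inv4
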